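import Cfsg.Agent.Lib.TwoNZ.Semi
import Cfsg.Agent.Lib.Geo.PrimSolvable
import Cfsg.Agent.Lib.Techniques.Bender
import Cfsg.Agent.Lib.Core.Basic
import Mathlib

/-!
# Counting lemmas for a group acting on a vector space with `p`-group stabilizers.
-/

set_option autoImplicit false
set_option linter.unusedSectionVars false

namespace Cfsg.Agent.Lib.TwoNZ

universe u v

open Cfsg

section Gen

variable {H : Type u} [Group H] [Finite H]

/-- A congruence for the fixed points of an endomorphism of prime power order. -/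
theorem card_modEq_fixed {α : Type*} [Finite α] (f : α → α) {r : ℕ} [Fact r.Prime]
    (hf : ∀ x, f^[r] x = x) : Nat.card α ≡ Nat.card {x // f x = x} [MOD r] := by
  classical
  haveI : Fintype α := Fintype.ofFinite α
  let g : Function.End α := f
  have hg : g ^ r ^ 1 = 1 := by
    rw [pow_one]
    funext x
    have : ∀ n : ℕ, ∀ y, (g ^ n : Function.End α) y = f^[n] y := by
      intro n
      induction n with
      | zero => intro y; rfl
      | succ n ih =>
        intro y
        rw [pow_succ, Function.iterate_succ_apply]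
        exact ih (f y)
    rw [this]
    exact hf x
  have h1 := Equiv.Perm.card_fixedPoints_modEq hg
  have h2 : Fintype.card (Function.fixedPoints g) = Nat.card {x // f x = x} := by
    rw [← Nat.card_eq_fintype_card]
    rfl
  rw [h2, ← Nat.card_eq_fintype_card] at h1
  exact h1

/-- Fixed points in a normal subgroup under a conjugation of prime order. -/
theorem card_modEq_centralizer (T : Subgroup H) [hT : T.Normal] {a : H} {r : ℕ} [Fact r.Prime]
    (ha : a ^ r = 1) :
    Nat.card T ≡ Nat.card (T ⊓ Subgroup.centralizer ({a} : Set H) : Subgroup H) [MOD r] := by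
  let f : T → T := fun t => ⟨a * t * a⁻¹, hT.conj_mem t t.2 a⟩
  have hit : ∀ (n : ℕ) (t : T), ((f^[n] t : T) : H) = a ^ n * t * (a ^ n)⁻¹ := by
    intro n
    induction n with
    | zero => intro t; simp
    | succ n ih =>
      intro t
      rw [Function.iterate_succ_apply']
      show a * ((f^[n] t : T) : H) * a⁻¹ = _
      rw [ih, pow_succ']
      group
  have h1 := card_modEq_fixed f (r := r) (fun t => Subtype.ext (by rw [hit, ha]; simp))
  have h2 : Nat.card {t // f t = t} = Nat.card (T ⊓ Subgroup.centralizer ({a} : Set H) : Subgroup H) := by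
    refine Nat.card_congr ?_
    refine
      { toFun := fun t => ⟨t.1.1, t.1.2, ?_⟩
        invFun := fun c => ⟨⟨c.1, c.2.1⟩, ?_⟩
        left_inv := fun t => rfl
        right_inv := fun c => rfl }
    · have h3 : a * (t.1 : H) * a⁻¹ = t.1 := congrArg Subtype.val t.2
      show (t.1 : H) ∈ Subgroup.centralizer ({a} : Set H)
      rw [Subgroup.mem_centralizer_singleton_iff]
      calc (t.1 : H) * a = (a * (t.1 : H) * a⁻¹) * a := by rw [h3]
        _ = a * t.1 := by group
    · apply Subtype.ext
      have h3 := Subgroup.mem_centralizer_singleton_iff.mp c.2.2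
      show a * (c : H) * a⁻¹ = c
      rw [← h3]
      group
  rw [h2] at h1
  exact h1

/-- The shape of the fixed points in a normal `ℓ`-subgroup. -/
theorem exists_fix_shape (T : Subgroup H) [hT : T.Normal] {ℓ : ℕ} [hℓ : Fact ℓ.Prime] (hTℓ : IsPGroup ℓ T)
    {a : H} {r : ℕ} [hr : Fact r.Prime] (ha : a ^ r = 1) (hne : ℓ ≠ r) :
    ∃ (c u j : ℕ), c = Nat.card (T ⊓ Subgroup.centralizer ({a} : Set H) : Subgroup H) ∧
      Nat.card T = c * u ∧ u ≡ 1 [MOD r] ∧ u = ℓ ^ j := by
  have h1 := card_modEq_centralizer T ha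
  have h2 : Nat.card (T ⊓ Subgroup.centralizer ({a} : Set H) : Subgroup H) ∣ Nat.card T :=
    Subgroup.card_dvd_of_le inf_le_left
  obtain ⟨u, hu⟩ := h2
  obtain ⟨j, hj⟩ : ∃ j, u = ℓ ^ j := by
    obtain ⟨k, hk⟩ := IsPGroup.iff_card.mp hTℓ
    have h3 : u ∣ ℓ ^ k := by
      rw [← hk, hu]
      exact Dvd.intro_left _ rfl
    obtain ⟨j, -, hj⟩ := (Nat.dvd_prime_pow hℓ.out).1 h3
    exact ⟨j, hj⟩
  refine ⟨_, u, j, rfl, hu, ?_, hj⟩
  · obtain ⟨k, hk⟩ := IsPGroup.iff_card.mp hTℓ
    have h3 : (Nat.card (T ⊓ Subgroup.centralizer ({a} : Set H) : Subgroup H)).Coprime r := by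
      have h4 : Nat.card (T ⊓ Subgroup.centralizer ({a} : Set H) : Subgroup H) ∣ Nat.card T :=
        ⟨u, hu⟩
      rw [hk] at h4
      refine Nat.Coprime.coprime_dvd_left h4 (Nat.Coprime.pow_left _ ?_)
      exact (Nat.coprime_primes hℓ.out hr.out).mpr hne
    rw [hu] at h1
    have h5 : Nat.card (T ⊓ Subgroup.centralizer ({a} : Set H) : Subgroup H) * u ≡
        Nat.card (T ⊓ Subgroup.centralizer ({a} : Set H) : Subgroup H) * 1 [MOD r] := by
      rw [mul_one]
      exact h1
    exact Nat.ModEq.cancel_left_of_coprime (by rw [Nat.gcd_comm]; exact h3) h5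

/-- If `u = 1` the element centralizes the subgroup. -/
theorem le_centralizer_of_card_eq (T : Subgroup H) {a : H}
    (h : Nat.card T = Nat.card (T ⊓ Subgroup.centralizer ({a} : Set H) : Subgroup H)) :
    T ≤ Subgroup.centralizer ({a} : Set H) := by
  have h1 := Subgroup.eq_of_le_of_card_ge (inf_le_left : T ⊓ Subgroup.centralizer ({a} : Set H) ≤ T) h.le
  exact inf_eq_left.mp h1

variable [Group.IsSolvable H]

/-- An element of prime order centralizing all the `ℓ`-cores, `ℓ ≠ r`, with trivial `r`-core. -/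
theorem false_of_centralizes_cores {b : H} {r : ℕ} [hr : Fact r.Prime] (hb : b ^ r = 1) (hb1 : b ≠ 1)
    (hcore : pCore r H = ⊥)
    (hcent : ∀ ℓ : ℕ, ℓ.Prime → ℓ ≠ r → pCore ℓ H ≤ Subgroup.centralizer ({b} : Set H)) : False := by
  have h1 : fittingSubgroup H ≤ Subgroup.centralizer ({b} : Set H) := by
    rw [Cfsg.Agent.Lib.Core.fittingSubgroup_eq_iSup_pCore]
    refine iSup_le fun ℓ => ?_
    by_cases hℓ : (ℓ : ℕ) = r
    · rw [hℓ, hcore]
      exact bot_le
    · exact hcent ℓ ℓ.2 hℓ
  have h2 : b ∈ Subgroup.centralizer ((fittingSubgroup H : Subgroup H) : Set H) := by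
    rw [Subgroup.mem_centralizer_iff]
    intro f hf
    have h3 := Subgroup.mem_centralizer_singleton_iff.mp (h1 hf)
    exact h3
  have h3 := Cfsg.Agent.Lib.Geo.centralizer_fitting_le_of_solvable h2
  have h4 : r ∣ Nat.card (fittingSubgroup H) := by
    have h5 : orderOf b = r := orderOf_eq_prime hb hb1
    have h6 := orderOf_dvd_natCard (⟨b, h3⟩ : fittingSubgroup H)
    rw [Subgroup.orderOf_mk, h5] at h6
    exact h6
  exact (Cfsg.Agent.Lib.Techniques.pCore_ne_bot_of_dvd h4) hcore

end Gen

end Cfsg.Agent.Lib.TwoNZ
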