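import Cfsg.Agent.Lib.TwoNZ.Count
import Mathlib

/-!
# Groups acting transitively on the nonzero vectors with `p`-group stabilizers: the small cases.
-/

set_option autoImplicit false
set_option linter.unusedSectionVars false

namespace Cfsg.Agent.Lib.TwoNZ

universe u v

open Cfsg

section Exc

variable {H : Type u} [Group H] [Finite H] {p : ℕ} [hp : Fact p.Prime] {V : Type v}
  [AddCommGroup V] [Module (ZMod p) V] [Finite V]
  (ρ : H →* (V ≃ₗ[ZMod p] V))
  (htrans : ∀ v w : V, v ≠ 0 → w ≠ 0 → ∃ g : H, ρ g v = w)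
  (hfix : ∀ (g : H) (v : V), v ≠ 0 → ρ g v = v → ∃ k : ℕ, g ^ (p ^ k) = 1)

include htrans hfix in
/-- Order of the group. -/
theorem card_eq_mul_pow {v₀ : V} (hv₀ : v₀ ≠ 0) : ∃ k : ℕ, Nat.card H = (Nat.card V - 1) * p ^ k := by
  classical
  letI : MulAction H V :=
    { smul := fun g v => ρ g v
      one_smul := fun v => by show ρ 1 v = v; simp
      mul_smul := fun g h v => by show ρ (g * h) v = ρ g (ρ h v); simp }
  have hsm : ∀ (g : H) (v : V), g • v = ρ g v := fun _ _ => rfl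
  haveI : Fintype H := Fintype.ofFinite H
  haveI : Fintype (MulAction.orbit H v₀) := Fintype.ofFinite _
  haveI : Fintype (MulAction.stabilizer H v₀) := Fintype.ofFinite _
  have h1 := MulAction.card_orbit_mul_card_stabilizer_eq_card_group H v₀
  simp only [← Nat.card_eq_fintype_card] at h1
  have hS : IsPGroup p (MulAction.stabilizer H v₀) := by
    intro g
    obtain ⟨k, hk⟩ := hfix g.1 v₀ hv₀ g.2
    exact ⟨k, Subtype.ext (by simpa using hk)⟩
  obtain ⟨k, hk⟩ := IsPGroup.iff_card.mp hS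
  refine ⟨k, ?_⟩
  rw [← h1, hk]
  congr 1
  have h2 : MulAction.orbit H v₀ = {v : V | v ≠ 0} := by
    ext w
    constructor
    · rintro ⟨g, rfl⟩
      show ρ g v₀ ≠ 0
      simpa using hv₀
    · intro hw
      obtain ⟨g, hg⟩ := htrans v₀ w hv₀ hw
      exact ⟨g, hg⟩
  rw [h2]
  have h3 : Nat.card ({v : V | v ≠ 0} : Set V) + 1 = Nat.card V := by
    have h4 : ({v : V | v ≠ 0} : Set V) = ({0} : Set V)ᶜ := by
      ext; simp
    rw [h4, _root_.Nat.card_coe_set_eq]
    have h5 := Set.ncard_add_ncard_compl ({0} : Set V)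
    rw [Set.ncard_singleton] at h5
    omega
  omega

include htrans hfix in
/-- The order of a `p'`-subgroup divides the number of nonzero vectors. -/
theorem card_dvd_of_coprime {v₀ : V} (hv₀ : v₀ ≠ 0) (T : Subgroup H) (hT : (Nat.card T).Coprime p) :
    Nat.card T ∣ Nat.card V - 1 := by
  obtain ⟨k, hk⟩ := card_eq_mul_pow ρ htrans hfix hv₀
  have h1 : Nat.card T ∣ (Nat.card V - 1) * p ^ k := by
    rw [← hk]
    exact Subgroup.card_subgroup_dvd_card T
  exact (Nat.Coprime.pow_right k hT).dvd_of_dvd_mul_right h1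

include hfix in
/-- An involution acts as minus one. -/
theorem invol_acts (hp2 : p ≠ 2) {t : H} (ht : t ^ 2 = 1) (ht1 : t ≠ 1) (v : V) : ρ t v = -v := by
  by_contra hne
  have hw : v + ρ t v ≠ 0 := by
    intro h
    exact hne (by rw [eq_neg_iff_add_eq_zero, add_comm]; exact h)
  have hw2 : ρ t (v + ρ t v) = v + ρ t v := by
    rw [map_add]
    have h1 : ρ t (ρ t v) = ρ (t ^ 2) v := by
      rw [pow_two, map_mul]; rfl
    rw [h1, ht, map_one, add_comm]
    rfl
  obtain ⟨k, hk⟩ := hfix t _ hw hw2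
  apply ht1
  have h2 : orderOf t ∣ 2 := orderOf_dvd_of_pow_eq_one ht
  have h3 : orderOf t ∣ p ^ k := orderOf_dvd_of_pow_eq_one hk
  have h4 : Nat.Coprime 2 (p ^ k) :=
    Nat.Coprime.pow_right _ ((Nat.coprime_primes Nat.prime_two hp.out).mpr (Ne.symm hp2))
  have h5 := Nat.eq_one_of_dvd_coprimes h4 h2 h3
  exact orderOf_eq_one_iff.mp h5

include hfix in
/-- Uniqueness of the involution. -/
theorem invol_unique (hρ : Function.Injective ρ) (hp2 : p ≠ 2) {t s : H} (ht : t ^ 2 = 1) (ht1 : t ≠ 1)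
    (hs : s ^ 2 = 1) (hs1 : s ≠ 1) : t = s := by
  apply hρ
  ext v
  rw [invol_acts ρ hfix hp2 ht ht1, invol_acts ρ hfix hp2 hs hs1]

include hfix in
/-- Centrality of the involution. -/
theorem invol_central (hρ : Function.Injective ρ) (hp2 : p ≠ 2) {t : H} (ht : t ^ 2 = 1) (ht1 : t ≠ 1)
    (g : H) : g * t = t * g := by
  have h1 : (g * t * g⁻¹) ^ 2 = 1 := by
    rw [conj_pow, ht]; group
  have h2 : g * t * g⁻¹ ≠ 1 := by
    intro h
    apply ht1
    have : t = g⁻¹ * (g * t * g⁻¹) * g := by group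
    rw [this, h]; group
  have h3 := invol_unique ρ hfix hρ hp2 h1 h2 ht ht1
  calc g * t = (g * t * g⁻¹) * g := by group
    _ = t * g := by rw [h3]

/-- Two distinct prime divisors exclude being a prime power. -/
theorem not_prime_pow_of_two {r s ℓ j u : ℕ} (hr : r.Prime) (hs : s.Prime) (hℓ : ℓ.Prime) (hne : r ≠ s)
    (hu : u = ℓ ^ j) (h1 : r ∣ u) (h2 : s ∣ u) : False := by
  rw [hu] at h1 h2
  have h3 := hr.dvd_of_dvd_pow h1
  have h4 := hs.dvd_of_dvd_pow h2
  have h5 := (Nat.prime_dvd_prime_iff_eq hr hℓ).mp h3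
  have h6 := (Nat.prime_dvd_prime_iff_eq hs hℓ).mp h4
  exact hne (h5.trans h6.symm)

include htrans hfix in
/-- The shape of the fixed points of an element of prime order on a core. -/
theorem core_shape (hρ : Function.Injective ρ) (hp2 : p ≠ 2) {v₀ : V} (hv₀ : v₀ ≠ 0) {a : H} {r : ℕ}
    [hr : Fact r.Prime] (ha : a ^ r = 1) {ℓ : ℕ} (hℓ : ℓ.Prime) (hℓr : ℓ ≠ r) (hℓp : ℓ ≠ p) :
    ∃ c u j : ℕ, c = Nat.card (pCore ℓ H ⊓ Subgroup.centralizer ({a} : Set H) : Subgroup H) ∧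
      Nat.card (pCore ℓ H) = c * u ∧ u ≡ 1 [MOD r] ∧ u = ℓ ^ j ∧ c * u ∣ Nat.card V - 1 ∧
      (2 ∣ c * u → 2 ∣ c) ∧ (u = 1 → pCore ℓ H ≤ Subgroup.centralizer ({a} : Set H)) := by
  haveI : Fact ℓ.Prime := ⟨hℓ⟩
  have hT : IsPGroup ℓ (pCore ℓ H) := Cfsg.Agent.Lib.Core.pCore_isPGroup ℓ H
  obtain ⟨c, u, j, hc, hcu, hu, hj⟩ := exists_fix_shape (pCore ℓ H) hT ha hℓr
  have hcop : (Nat.card (pCore ℓ H)).Coprime p := by
    obtain ⟨k, hk⟩ := IsPGroup.iff_card.mp hT
    rw [hk]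
    exact Nat.Coprime.pow_left _ ((Nat.coprime_primes hℓ hp.out).mpr hℓp)
  refine ⟨c, u, j, hc, hcu, hu, hj, ?_, ?_, ?_⟩
  · rw [← hcu]
    exact card_dvd_of_coprime ρ htrans hfix hv₀ _ hcop
  · intro h2
    rw [← hcu] at h2
    haveI : Fact (Nat.Prime 2) := ⟨Nat.prime_two⟩
    obtain ⟨z, hz⟩ := exists_prime_orderOf_dvd_card' (G := pCore ℓ H) 2 h2
    have hz1 : (z : H) ^ 2 = 1 := by
      have := pow_orderOf_eq_one z
      rw [hz] at this
      exact_mod_cast congrArg Subtype.val this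
    have hz2 : (z : H) ≠ 1 := by
      intro h
      have h3 : z = 1 := Subtype.ext h
      rw [h3, orderOf_one] at hz
      omega
    have hzc : (z : H) ∈ (pCore ℓ H ⊓ Subgroup.centralizer ({a} : Set H) : Subgroup H) := by
      refine ⟨z.2, ?_⟩
      show (z : H) ∈ Subgroup.centralizer ({a} : Set H)
      rw [Subgroup.mem_centralizer_singleton_iff]
      exact (invol_central ρ hfix hρ hp2 hz1 hz2 a).symm
    have h4 := orderOf_dvd_natCard (⟨z, hzc⟩ : (pCore ℓ H ⊓ Subgroup.centralizer ({a} : Set H) : Subgroup H))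
    rw [Subgroup.orderOf_mk, ← hc] at h4
    have h5 : orderOf (z : H) = 2 := by
      rw [← hz]
      exact Subgroup.orderOf_coe z
    rwa [h5] at h4
  · rintro rfl
    apply le_centralizer_of_card_eq
    rw [hcu, hc, mul_one]

end Exc

end Cfsg.Agent.Lib.TwoNZ
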