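import Cfsg.Agent.Lib.TwoNZ.Exc
import Mathlib

/-!
# The seven-case: a normal subgroup of order 16 with a unique involution.
-/

set_option autoImplicit false
set_option linter.unusedSectionVars false

namespace Cfsg.Agent.Lib.TwoNZ

universe u v

open Cfsg

section Special

variable {H : Type u} [Group H] [Finite H]

/-- Avoiding a short list in a large subgroup. -/
theorem exists_mem_notMem_list (T : Subgroup H) (S : List H) (h : S.length < Nat.card T) :
    ∃ y ∈ T, y ∉ S := by
  classical
  by_contra hcon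
  push Not at hcon
  have h1 : Nat.card T ≤ S.toFinset.card := by
    have h2 : Function.Injective (fun t : T => (⟨t.1, List.mem_toFinset.mpr (hcon t.1 t.2)⟩ : S.toFinset)) := by
      intro x y hxy
      exact Subtype.ext (congrArg (fun w : S.toFinset => (w : H)) hxy)
    have h3 := Nat.card_le_card_of_injective _ h2
    rw [Nat.card_eq_fintype_card (α := S.toFinset), Fintype.card_coe] at h3
    exact h3
  have h4 := List.toFinset_card_le S
  omega

/-- Anticommutation. -/
theorem anti_aux {z w y : H} (hzz : z * z = 1) (hzc : ∀ g : H, g * z = z * g) (hw : w * w = z) (hy : y * y = z)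
    (hyw : y * w * (y * w) = z) : y * w = z * (w * y) := by
  have hw' : w⁻¹ = z * w := by
    apply inv_eq_of_mul_eq_one_right
    rw [← mul_assoc, hzc w, mul_assoc, hw, hzz]
  have hy' : y⁻¹ = z * y := by
    apply inv_eq_of_mul_eq_one_right
    rw [← mul_assoc, hzc y, mul_assoc, hy, hzz]
  calc y * w = y * w * (y * w) * (w⁻¹ * y⁻¹) := by group
    _ = z * ((z * w) * (z * y)) := by rw [hyw, hw', hy']
    _ = z * ((z * z) * (w * y)) := by rw [(show Commute w z from hzc w).mul_mul_mul_comm]
    _ = z * (w * y) := by rw [hzz, one_mul]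

/-- The special group of order 16 cannot occur. -/
theorem special_sixteen {T : Subgroup H} [hTn : T.Normal] (hT : Nat.card T = 16) {a : H} (ha : a ^ 7 = 1)
    (hc : Nat.card (T ⊓ Subgroup.centralizer ({a} : Set H) : Subgroup H) = 2)
    (huniq : ∀ s t : H, s ^ 2 = 1 → s ≠ 1 → t ^ 2 = 1 → t ≠ 1 → s = t) : False := by
  classical
  haveI : Fact (Nat.Prime 2) := ⟨Nat.prime_two⟩
  haveI : Fact (Nat.Prime 7) := ⟨by norm_num⟩
  obtain ⟨z₀, hz₀⟩ := exists_prime_orderOf_dvd_card'
    (G := (T ⊓ Subgroup.centralizer ({a} : Set H) : Subgroup H)) 2 (by rw [hc])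
  set z : H := (z₀ : H) with hzdef
  have hzord : orderOf z = 2 := by
    rw [← hz₀]
    exact Subgroup.orderOf_coe z₀
  have hz2 : z ^ 2 = 1 := by
    rw [← hzord]
    exact pow_orderOf_eq_one z
  have hz1 : z ≠ 1 := by
    intro h
    rw [h, orderOf_one] at hzord
    omega
  have hzT : z ∈ T := z₀.2.1
  have hzz : z * z = 1 := by rw [← pow_two, hz2]
  have hzc : ∀ g : H, g * z = z * g := by
    intro g
    have h1 : (g * z * g⁻¹) ^ 2 = 1 := by
      rw [conj_pow, hz2]; group
    have h2 : g * z * g⁻¹ ≠ 1 := by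
      intro h
      apply hz1
      have : z = g⁻¹ * (g * z * g⁻¹) * g := by group
      rw [this, h]; group
    have h3 := huniq _ _ h1 h2 hz2 hz1
    calc g * z = (g * z * g⁻¹) * g := by group
      _ = z * g := by rw [h3]
  -- the set `A`
  let A := {x : H // x ∈ T ∧ x ^ 4 = 1}
  have hAle : Nat.card A ≤ 16 := by
    have h1 : Function.Injective (fun x : A => (⟨x.1, x.2.1⟩ : T)) := by
      intro x y hxy
      exact Subtype.ext (congrArg (fun w : T => (w : H)) hxy)
    have h2 := Nat.card_le_card_of_injective _ h1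
    rwa [hT] at h2
  -- congruence mod `7`
  have hA7 : Nat.card A ≡ 2 [MOD 7] := by
    let f : A → A := fun x => ⟨a * x.1 * a⁻¹, hTn.conj_mem _ x.2.1 a, by
      rw [conj_pow, x.2.2]; group⟩
    have hit : ∀ (n : ℕ) (t : A), ((f^[n] t : A) : H) = a ^ n * t.1 * (a ^ n)⁻¹ := by
      intro n
      induction n with
      | zero => intro t; simp
      | succ n ih =>
        intro t
        rw [Function.iterate_succ_apply']
        show a * ((f^[n] t : A) : H) * a⁻¹ = _
        rw [ih, pow_succ']
        group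
    have h1 := card_modEq_fixed f (r := 7) (fun t => Subtype.ext (by rw [hit, ha]; simp))
    have h2 : Nat.card {t // f t = t} = Nat.card (T ⊓ Subgroup.centralizer ({a} : Set H) : Subgroup H) := by
      refine Nat.card_congr ?_
      refine
        { toFun := fun t => ⟨t.1.1, t.1.2.1, ?_⟩
          invFun := fun c => ⟨⟨c.1, c.2.1, ?_⟩, ?_⟩
          left_inv := fun t => rfl
          right_inv := fun c => rfl }
      · have h3 : a * (t.1.1 : H) * a⁻¹ = t.1.1 := congrArg Subtype.val t.2
        show (t.1.1 : H) ∈ Subgroup.centralizer ({a} : Set H)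
        rw [Subgroup.mem_centralizer_singleton_iff]
        calc (t.1.1 : H) * a = (a * (t.1.1 : H) * a⁻¹) * a := by rw [h3]
          _ = a * t.1.1 := by group
      · have h3 : c ^ 2 = 1 := by
          rw [← hc]
          exact pow_card_eq_one'
        have h4 : (c : H) ^ 2 = 1 := by
          exact_mod_cast congrArg Subtype.val h3
        calc (c : H) ^ 4 = ((c : H) ^ 2) ^ 2 := by rw [← pow_mul]
          _ = 1 := by rw [h4, one_pow]
      · apply Subtype.ext
        have h3 := Subgroup.mem_centralizer_singleton_iff.mp c.2.2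
        show a * (c : H) * a⁻¹ = c
        rw [← h3]
        group
    rw [h2, hc] at h1
    exact h1
  -- congruence mod `2`
  have hA2 : Nat.card A ≡ 0 [MOD 2] := by
    let f : A → A := fun x => ⟨z * x.1, T.mul_mem hzT x.2.1, by
      rw [(show Commute z x.1 from (hzc x.1).symm).mul_pow, x.2.2]
      have : z ^ 4 = (z ^ 2) ^ 2 := by rw [← pow_mul]
      rw [this, hz2]; simp⟩
    have h1 := card_modEq_fixed f (r := 2) (fun t => Subtype.ext (by
      show z * (z * t.1) = t.1
      rw [← mul_assoc, hzz, one_mul]))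
    have h2 : Nat.card {t // f t = t} = 0 := by
      rw [Nat.card_eq_zero]
      left
      constructor
      rintro ⟨t, ht⟩
      have h3 : z * t.1 = t.1 := congrArg Subtype.val ht
      exact hz1 (by simpa using h3)
    rw [h2] at h1
    exact h1
  -- a large element
  have hlist : ∃ y ∈ T, y ∉ [1, z] := exists_mem_notMem_list T _ (by rw [hT]; simp)
  obtain ⟨x₀, hx₀T, hx₀⟩ := hlist
  simp only [List.mem_cons, List.not_mem_nil, or_false, not_or] at hx₀
  have hnot : ∀ y : H, y ≠ 1 → y ≠ z → y ^ 2 ≠ 1 := by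
    intro y h1 h2 h3
    exact h2 (huniq _ _ h3 h1 hz2 hz1)
  have hT16 : ∀ y ∈ T, y ^ 16 = 1 := by
    intro y hy
    have h1 : (⟨y, hy⟩ : T) ^ Nat.card T = 1 := pow_card_eq_one'
    rw [hT] at h1
    have h2 := congrArg Subtype.val h1
    simpa using h2
  have hy0 : ∃ y ∈ T, y ^ 2 ≠ 1 ∧ y ^ 4 = 1 := by
    by_cases h4 : x₀ ^ 4 = 1
    · exact ⟨x₀, hx₀T, hnot _ hx₀.1 hx₀.2, h4⟩
    · by_cases h8 : x₀ ^ 8 = 1
      · refine ⟨x₀ ^ 2, T.pow_mem hx₀T _, ?_, ?_⟩
        · rw [← pow_mul]; exact h4
        · rw [← pow_mul]; exact h8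
      · refine ⟨x₀ ^ 4, T.pow_mem hx₀T _, ?_, ?_⟩
        · rw [← pow_mul]; exact h8
        · rw [← pow_mul]; exact hT16 _ hx₀T
  obtain ⟨y₀, hy₀T, hy₀2, hy₀4⟩ := hy0
  have hA3 : 2 < Nat.card A := by
    have hy1 : y₀ ≠ 1 := by
      rintro rfl
      simp at hy₀2
    have hyz : y₀ ≠ z := by
      rintro rfl
      exact hy₀2 hz2
    let e : Fin 3 → A := ![⟨1, T.one_mem, one_pow _⟩,
      ⟨z, hzT, by rw [show z ^ 4 = (z ^ 2) ^ 2 by rw [← pow_mul], hz2]; simp⟩, ⟨y₀, hy₀T, hy₀4⟩]
    have he : Function.Injective e := by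
      intro i j hij
      have h0 : (e i : H) = e j := congrArg Subtype.val hij
      fin_cases i <;> fin_cases j <;> first
        | rfl
        | exact absurd h0 (by simpa [e] using hz1)
        | exact absurd h0 (by simpa [e] using hz1.symm)
        | exact absurd h0 (by simpa [e] using hy1)
        | exact absurd h0 (by simpa [e] using hy1.symm)
        | exact absurd h0 (by simpa [e] using hyz)
        | exact absurd h0 (by simpa [e] using hyz.symm)
    have h1 := Nat.card_le_card_of_injective e he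
    simp at h1
    omega
  have hA16 : Nat.card A = 16 := by
    have h7 : Nat.card A % 7 = 2 := hA7
    have h2 : Nat.card A % 2 = 0 := hA2
    omega
  -- all elements of `T` have square `z`
  have hall : ∀ x ∈ T, x ^ 4 = 1 := by
    have h1 : Function.Injective (fun x : A => (⟨x.1, x.2.1⟩ : T)) := by
      intro x y hxy
      exact Subtype.ext (congrArg (fun w : T => (w : H)) hxy)
    have h2 := (Nat.bijective_iff_injective_and_card _).2 ⟨h1, hA16.trans hT.symm⟩
    intro x hx
    obtain ⟨y, hy⟩ := h2.2 ⟨x, hx⟩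
    have h3 : (y : H) = x := congrArg Subtype.val hy
    rw [← h3]
    exact y.2.2
  have hsq : ∀ x ∈ T, x ≠ 1 → x ≠ z → x * x = z := by
    intro x hx h1 h2
    have h3 : (x * x) ^ 2 = 1 := by
      calc (x * x) ^ 2 = x ^ (2 * 2) := by rw [← pow_two, ← pow_mul]
        _ = 1 := hall x hx
    have h4 : x * x ≠ 1 := by
      rw [← pow_two]
      exact hnot x h1 h2
    exact huniq _ _ h3 h4 hz2 hz1
  have hanti : ∀ w ∈ T, ∀ y ∈ T, w ≠ 1 → w ≠ z → y ≠ 1 → y ≠ z → y ≠ w → y ≠ z * w → y * w = z * (w * y) := by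
    intro w hw y hy hw1 hwz hy1 hyz hyw hyzw
    have hww := hsq w hw hw1 hwz
    have hyy := hsq y hy hy1 hyz
    have hwinv : w⁻¹ = z * w := by
      apply inv_eq_of_mul_eq_one_right
      rw [← mul_assoc, hzc w, mul_assoc, hww, hzz]
    have h1 : y * w ≠ 1 := by
      intro h
      apply hyzw
      rw [← hwinv]
      exact eq_inv_of_mul_eq_one_left h
    have h2 : y * w ≠ z := by
      intro h
      apply hyw
      have h3 : y = z * w⁻¹ := by
        rw [← h]; group
      rw [h3, hwinv, ← mul_assoc, hzz, one_mul]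
    exact anti_aux hzz hzc hww hyy (hsq _ (T.mul_mem hy hw) h1 h2)
  -- picking the elements
  obtain ⟨x, hxT, hx⟩ := exists_mem_notMem_list T [1, z] (by rw [hT]; simp)
  obtain ⟨t, htT, ht⟩ := exists_mem_notMem_list T [1, z, x, z * x] (by rw [hT]; simp)
  obtain ⟨y, hyT, hy⟩ := exists_mem_notMem_list T [1, z, x, z * x, t, z * t, x * t, z * (x * t)]
    (by rw [hT]; simp)
  simp only [List.mem_cons, List.not_mem_nil, or_false, not_or] at hx ht hy
  obtain ⟨hx1, hxz⟩ := hx
  obtain ⟨ht1, htz, htx, htzx⟩ := ht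
  obtain ⟨hy1, hyz, hyx, hyzx, hyt, hyzt, hyxt, hyzxt⟩ := hy
  have h1 : t * x = z * (x * t) := hanti x hxT t htT hx1 hxz ht1 htz htx htzx
  have h1' : x * t = z * (t * x) := by
    rw [h1, ← mul_assoc, hzz, one_mul]
  have hxt1 : x * t ≠ 1 := by
    intro h
    apply htzx
    have hxinv : x⁻¹ = z * x := by
      apply inv_eq_of_mul_eq_one_right
      rw [← mul_assoc, hzc x, mul_assoc, hsq x hxT hx1 hxz, hzz]
    rw [← hxinv]
    exact eq_inv_of_mul_eq_one_right h
  have hxtz : x * t ≠ z := by
    intro h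
    apply htx
    have hxinv : x⁻¹ = z * x := by
      apply inv_eq_of_mul_eq_one_right
      rw [← mul_assoc, hzc x, mul_assoc, hsq x hxT hx1 hxz, hzz]
    have h3 : t = x⁻¹ * z := by
      rw [← h]; group
    rw [h3, hxinv, hzc, ← mul_assoc, hzz, one_mul]
  have h2 := hanti x hxT y hyT hx1 hxz hy1 hyz hyx hyzx
  have h3 := hanti t htT y hyT ht1 htz hy1 hyz hyt hyzt
  have h4 := hanti (x * t) (T.mul_mem hxT htT) y hyT hxt1 hxtz hy1 hyz hyxt hyzxt
  apply hz1
  have h5 : y * (x * t) = x * t * y := by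
    calc y * (x * t) = (y * x) * t := by rw [mul_assoc]
      _ = (z * (x * y)) * t := by rw [h2]
      _ = z * x * (y * t) := by group
      _ = z * x * (z * (t * y)) := by rw [h3]
      _ = z * (x * z) * (t * y) := by group
      _ = z * (z * x) * (t * y) := by rw [hzc x]
      _ = (z * z) * (x * t * y) := by group
      _ = x * t * y := by rw [hzz, one_mul]
  rw [h5] at h4
  have h6 : x * t * y = z * (x * t * y) := h4
  have h7 : (z * (x * t * y)) * (x * t * y)⁻¹ = z := by group
  rw [← h6] at h7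
  simpa using h7.symm

end Special

end Cfsg.Agent.Lib.TwoNZ
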