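import Cfsg.Agent.Lib.TwoNZ.Exc2
import Mathlib

/-!
# The exceptional degrees in Huppert's theorem.
-/

set_option autoImplicit false
set_option linter.unusedSectionVars false

namespace Cfsg.Agent.Lib.TwoNZ

universe u v

open Cfsg

section Num

theorem num5 {u : ℕ} (h1 : u ∣ 24) (h2 : u % 5 = 1) : u = 1 ∨ u = 6 := by
  have : u ≤ 24 := Nat.le_of_dvd (by norm_num) h1
  interval_cases u <;> omega

theorem num7 {u : ℕ} (h1 : u ∣ 48) (h2 : u % 7 = 1) : u = 1 ∨ u = 8 := by
  have : u ≤ 48 := Nat.le_of_dvd (by norm_num) h1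
  interval_cases u <;> omega

theorem num11 {u : ℕ} (h1 : u ∣ 120) (h2 : u % 11 = 1) : u = 1 ∨ u = 12 := by
  have : u ≤ 120 := Nat.le_of_dvd (by norm_num) h1
  interval_cases u <;> omega

theorem num23 {u : ℕ} (h1 : u ∣ 528) (h2 : u % 23 = 1) : u = 1 ∨ u = 24 := by
  have : u ≤ 528 := Nat.le_of_dvd (by norm_num) h1
  interval_cases u <;> omega

theorem num3 {u : ℕ} (h1 : u ∣ 8) (h2 : u % 3 = 1) : u = 1 ∨ u = 4 := by
  have : u ≤ 8 := Nat.le_of_dvd (by norm_num) h1
  interval_cases u <;> omega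

theorem num80a {u : ℕ} (h1 : u ∣ 80) (h2 : u % 3 = 1) : u = 1 ∨ 2 ∣ u := by
  have : u ≤ 80 := Nat.le_of_dvd (by norm_num) h1
  interval_cases u <;> omega

theorem num80b {u : ℕ} (h1 : u ∣ 80) (h2 : u % 5 = 1) : u = 1 ∨ u = 16 := by
  have : u ≤ 80 := Nat.le_of_dvd (by norm_num) h1
  interval_cases u <;> omega

theorem num81 {u : ℕ} (h1 : u ∣ 81) (h2 : 3 ∣ u) (h3 : u ≠ 81) (h4 : u % 5 = 1) : False := by
  have : u ≤ 81 := Nat.le_of_dvd (by norm_num) h1
  interval_cases u <;> omega

end Num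

section Exc

variable {H : Type u} [Group H] [Finite H] {p : ℕ} [hp : Fact p.Prime] {V : Type v}
  [AddCommGroup V] [Module (ZMod p) V] [Finite V]
  (ρ : H →* (V ≃ₗ[ZMod p] V))
  (htrans : ∀ v w : V, v ≠ 0 → w ≠ 0 → ∃ g : H, ρ g v = w)
  (hfix : ∀ (g : H) (v : V), v ≠ 0 → ρ g v = v → ∃ k : ℕ, g ^ (p ^ k) = 1)

/-- Iterates of the action. -/
theorem iter_rho (g : H) (n : ℕ) (v : V) : (⇑(ρ g))^[n] v = ρ (g ^ n) v := by
  induction n with
  | zero => simp
  | succ n ih =>
    rw [Function.iterate_succ_apply', ih, pow_succ', map_mul]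
    rfl

omit [Finite H] in
/-- A prime is determined by the order of the space. -/
theorem prime_eq_of_card {q n : ℕ} (hq : q.Prime) (hV : Nat.card V = q ^ n) {v : V} (hv : v ≠ 0) : p = q := by
  have h1 : p • v = 0 := by
    rw [← Nat.cast_smul_eq_nsmul (ZMod p) p v]
    simp
  have h2 := addOrderOf_eq_prime h1 hv
  have h3 := addOrderOf_dvd_natCard v
  rw [h2, hV] at h3
  exact (Nat.prime_dvd_prime_iff_eq hp.out hq).mp (hp.out.dvd_of_dvd_pow h3)

omit [AddCommGroup V] [Module (ZMod p) V] [Finite V] in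
/-- The conclusion for `p'`-groups. -/
theorem conclusion_of_not_dvd (h : ¬ p ∣ Nat.card H) :
    HasNormalPComplement p H ∧ ∀ Q : Sylow p H, IsMulCommutative Q := by
  have hQ : ∀ Q : Sylow p H, Nat.card Q = 1 := by
    intro Q
    obtain ⟨k, hk⟩ := IsPGroup.iff_card.mp Q.isPGroup'
    have h1 : Nat.card Q ∣ Nat.card H := Subgroup.card_subgroup_dvd_card _
    cases k with
    | zero => simpa using hk
    | succ k =>
      exfalso
      apply h
      rw [hk] at h1
      exact (dvd_pow_self _ (Nat.succ_ne_zero _)).trans h1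
  constructor
  · obtain ⟨P⟩ : Nonempty (Sylow p H) := inferInstance
    refine ⟨P, ⊤, inferInstance, ?_⟩
    have h1 : (P : Subgroup H) = ⊥ := Subgroup.eq_bot_of_card_eq _ (hQ P)
    rw [h1]
    exact Subgroup.isComplement'_top_bot
  · intro Q
    have h1 := hQ Q
    haveI : Subsingleton Q := (Nat.card_eq_one_iff_unique.mp h1).1
    exact ⟨⟨fun x y => Subsingleton.elim _ _⟩⟩

/-- A group of order `q`, `q²` or `1` is commutative. -/
theorem comm_of_card_pow_le_two {X : Type*} [Group X] [Finite X] {q m : ℕ} [hq : Fact q.Prime]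
    (h : Nat.card X = q ^ m) (hm : m ≤ 2) : IsMulCommutative X := by
  interval_cases m
  · haveI : Subsingleton X := (Nat.card_eq_one_iff_unique.mp (by simpa using h)).1
    exact ⟨⟨fun x y => Subsingleton.elim _ _⟩⟩
  · haveI : IsCyclic X := isCyclic_of_prime_card (p := q) (by simpa using h)
    exact IsCyclic.isMulCommutative
  · exact IsPGroup.isMulCommutative_of_card_eq_prime_sq h

variable [Group.IsSolvable H]

include htrans hfix in
/-- The generic numerical exclusion. -/
theorem false_of_num (hρ : Function.Injective ρ) (hcore : pCore p H = ⊥) (hp2 : p ≠ 2) {v₀ : V} (hv₀ : v₀ ≠ 0)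
    {a : H} (ha : a ^ p = 1) (ha1 : a ≠ 1)
    (hnum : ∀ ℓ u j : ℕ, ℓ.Prime → u ∣ Nat.card V - 1 → u ≡ 1 [MOD p] → u = ℓ ^ j → u = 1) : False := by
  refine false_of_centralizes_cores ha ha1 hcore (fun ℓ hℓ hne => ?_)
  obtain ⟨c, u, j, -, -, hu, hj, hd, -, hu1⟩ := core_shape ρ htrans hfix hρ hp2 hv₀ ha hℓ hne hne
  exact hu1 (hnum ℓ u j hℓ ((Dvd.intro_left _ rfl).trans hd) hu hj)

include htrans hfix in
/-- The case `p = 7`. -/
theorem false_seven (hρ : Function.Injective ρ) (hp7 : p = 7) (hcore : pCore p H = ⊥) (hV : Nat.card V = 49)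
    {v₀ : V} (hv₀ : v₀ ≠ 0) {a : H} (ha : a ^ p = 1) (ha1 : a ≠ 1) : False := by
  have hp2 : p ≠ 2 := by omega
  refine false_of_centralizes_cores ha ha1 hcore (fun ℓ hℓ hne => ?_)
  obtain ⟨c, u, j, hc, hcu, hu, hj, hd, h2, hu1⟩ := core_shape ρ htrans hfix hρ hp2 hv₀ ha hℓ hne hne
  rw [hV] at hd
  have hu' : u % 7 = 1 := by
    subst hp7
    exact hu
  rcases num7 ((Dvd.intro_left _ rfl).trans hd) hu' with h1 | h1
  · exact hu1 h1
  · exfalso
    subst h1
    have hℓ2 : ℓ = 2 := by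
      have h3 : 2 ∣ ℓ ^ j := by
        rw [← hj]; norm_num
      exact ((Nat.prime_dvd_prime_iff_eq Nat.prime_two hℓ).mp (Nat.prime_two.dvd_of_dvd_pow h3)).symm
    subst hℓ2
    have h3 : 2 ∣ c := h2 (by omega)
    haveI : Fact (Nat.Prime 2) := ⟨Nat.prime_two⟩
    obtain ⟨m, hm⟩ := IsPGroup.iff_card.mp (Cfsg.Agent.Lib.Core.pCore_isPGroup 2 H)
    have h4 : c ≠ 0 := by
      rintro rfl
      simp at hd
    have h5 : c ∣ 6 := by
      have h6 : c * 8 ∣ 6 * 8 := hd
      exact Nat.dvd_of_mul_dvd_mul_right (by norm_num) h6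
    have h6 : c ∣ 2 ^ m := by
      rw [← hm, hcu]
      exact Dvd.intro _ rfl
    have h7 : c = 2 := by
      have h8 : c ≤ 6 := Nat.le_of_dvd (by norm_num) h5
      have h9 : ¬ 3 ∣ c := by
        intro h
        have := Nat.prime_three.dvd_of_dvd_pow (h.trans h6)
        omega
      interval_cases c <;> omega
    subst h7
    haveI : Fact (Nat.Prime 7) := ⟨by norm_num⟩
    have ha7 : a ^ 7 = 1 := by
      subst hp7
      exact ha
    exact special_sixteen (T := pCore 2 H) (by rw [hcu]) ha7 hc.symm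
      (fun s t hs hs1 ht ht1 => invol_unique ρ hfix hρ hp2 hs hs1 ht ht1)

include hfix in
/-- The commuting case for `81`. -/
theorem no_comm81 (hρ : Function.Injective ρ) (hp3 : p = 3) (hV : Nat.card V = 81) {a y : H} (ha : a ^ 3 = 1)
    (ha1 : a ≠ 1) (hy : y ^ 5 = 1) (hy1 : y ≠ 1) (hc : a * y = y * a) : False := by
  classical
  subst hp3
  haveI : Fact (Nat.Prime 5) := ⟨by norm_num⟩
  let W : AddSubgroup V :=
    { carrier := {v | ρ a v = v}
      add_mem' := by
        intro v w hv hw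
        show ρ a (v + w) = v + w
        rw [map_add, show ρ a v = v from hv, show ρ a w = w from hw]
      zero_mem' := by
        show ρ a 0 = 0
        simp
      neg_mem' := by
        intro v hv
        show ρ a (-v) = -v
        rw [map_neg, show ρ a v = v from hv] }
  have hmem : ∀ v : V, v ∈ W ↔ ρ a v = v := fun _ => Iff.rfl
  have h1 : Nat.card V ≡ Nat.card {x // (ρ a) x = x} [MOD 3] :=
    card_modEq_fixed (⇑(ρ a)) (r := 3) (fun v => by rw [iter_rho, ha]; simp)
  have h2 : Nat.card {x // (ρ a) x = x} = Nat.card W := rfl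
  rw [h2, hV] at h1
  have h3 : 3 ∣ Nat.card W := by
    have h4 : 81 % 3 = Nat.card W % 3 := h1
    omega
  have h5 : Nat.card W ∣ 81 := by
    rw [← hV]
    exact AddSubgroup.card_addSubgroup_dvd_card W
  have h6 : Nat.card W ≠ 81 := by
    intro h
    have h7 : W = ⊤ := AddSubgroup.eq_top_of_card_eq W (by rw [h, hV])
    apply ha1
    apply hρ
    ext v
    have h8 : v ∈ W := by rw [h7]; trivial
    rw [map_one]
    exact h8
  let f : W → W := fun w => ⟨ρ y w, by
    show ρ a (ρ y w) = ρ y w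
    have h7 : ρ a (ρ y w) = ρ (a * y) w := by
      rw [map_mul]; rfl
    have h8 : ρ y (ρ a w) = ρ (y * a) w := by
      rw [map_mul]; rfl
    rw [h7, hc, ← h8, (hmem _).mp w.2]⟩
  have hit : ∀ (n : ℕ) (w : W), ((f^[n] w : W) : V) = ρ (y ^ n) w := by
    intro n
    induction n with
    | zero => intro w; simp
    | succ n ih =>
      intro w
      rw [Function.iterate_succ_apply']
      show ρ y ((f^[n] w : W) : V) = _
      rw [ih, pow_succ', map_mul]
      rfl
  have h7 := card_modEq_fixed f (r := 5) (fun w => Subtype.ext (by rw [hit, hy]; simp))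
  have h8 : Nat.card {w // f w = w} = 1 := by
    rw [Nat.card_eq_one_iff_unique]
    refine ⟨⟨?_⟩, ⟨⟨0, Subtype.ext (by show ρ y 0 = 0; simp)⟩⟩⟩
    have h9 : ∀ w : {w // f w = w}, w = ⟨0, Subtype.ext (by show ρ y 0 = 0; simp)⟩ := by
      rintro ⟨w, hw⟩
      apply Subtype.ext
      apply Subtype.ext
      by_contra hne
      have h10 : ρ y (w : V) = w := congrArg Subtype.val hw
      obtain ⟨k, hk⟩ := hfix y w hne h10
      apply hy1
      have h11 : orderOf y ∣ 5 := orderOf_dvd_of_pow_eq_one hy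
      have h12 : orderOf y ∣ 3 ^ k := orderOf_dvd_of_pow_eq_one hk
      have h13 : Nat.Coprime 5 (3 ^ k) := Nat.Coprime.pow_right _ (by norm_num)
      exact orderOf_eq_one_iff.mp (Nat.eq_one_of_dvd_coprimes h13 h11 h12)
    exact fun x z => (h9 x).trans (h9 z).symm
  rw [h8] at h7
  exact num81 h5 h3 h6 h7

include htrans hfix in
/-- The case `81`. -/
theorem false_81 (hρ : Function.Injective ρ) (hp3 : p = 3) (hcore : pCore p H = ⊥) (hV : Nat.card V = 81)
    {v₀ : V} (hv₀ : v₀ ≠ 0) {a : H} (ha : a ^ 3 = 1) (ha1 : a ≠ 1) : False := by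
  have hp2 : p ≠ 2 := by omega
  have hn : Nat.card V - 1 = 80 := by omega
  haveI : Fact (Nat.Prime 3) := ⟨Nat.prime_three⟩
  haveI : Fact (Nat.Prime 5) := ⟨by norm_num⟩
  by_cases hR : pCore 5 H = ⊥
  · -- an element of order five
    obtain ⟨k, hk⟩ := card_eq_mul_pow ρ htrans hfix hv₀
    have h5 : 5 ∣ Nat.card H := by
      rw [hk, hn]
      exact Dvd.dvd.mul_right (by norm_num) _
    obtain ⟨y, hy⟩ := exists_prime_orderOf_dvd_card' (G := H) 5 h5
    have hy5 : y ^ 5 = 1 := by
      rw [← hy]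
      exact pow_orderOf_eq_one y
    have hy1 : y ≠ 1 := by
      rintro rfl
      rw [orderOf_one] at hy
      omega
    refine false_of_centralizes_cores hy5 hy1 hR (fun ℓ hℓ hne => ?_)
    by_cases hℓ3 : ℓ = 3
    · subst hℓ3
      rw [← hp3] at *
      rw [hcore]
      exact bot_le
    · obtain ⟨c, u, j, -, hcu, hu, hj, hd, h2, hu1⟩ :=
        core_shape ρ htrans hfix hρ hp2 hv₀ hy5 hℓ hne (by omega)
      rw [hn] at hd
      rcases num80b ((Dvd.intro_left _ rfl).trans hd) hu with h1 | h1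
      · exact hu1 h1
      · exfalso
        subst h1
        have h3 : 2 ∣ c := h2 (by omega)
        obtain ⟨c', rfl⟩ := h3
        have h4 : 32 ∣ 80 := by
          refine Dvd.dvd.trans ?_ hd
          exact ⟨c', by ring⟩
        omega
  · -- an element of order five in the core
    obtain ⟨c, u, j, -, hcu, hu, hj, hd, h2, hu1⟩ :=
        core_shape ρ htrans hfix hρ hp2 hv₀ ha Nat.prime_five (by norm_num) (by omega)
    rw [hn] at hd
    have hu3 : u % 3 = 1 := hu
    rcases num80a ((Dvd.intro_left _ rfl).trans hd) hu3 with h1 | h1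
    · have h3 := hu1 h1
      have h4 : 5 ∣ Nat.card (pCore 5 H) := by
        obtain ⟨m, hm⟩ := IsPGroup.iff_card.mp (Cfsg.Agent.Lib.Core.pCore_isPGroup 5 H)
        have h6 : m ≠ 0 := by
          rintro rfl
          exact hR (Subgroup.eq_bot_of_card_eq _ (by simpa using hm))
        rw [hm]
        exact dvd_pow_self _ h6
      obtain ⟨y, hy⟩ := exists_prime_orderOf_dvd_card' (G := pCore 5 H) 5 h4
      have hy' : orderOf (y : H) = 5 := (Subgroup.orderOf_coe y).trans hy
      have hy5 : (y : H) ^ 5 = 1 := by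
        have h7 := pow_orderOf_eq_one (y : H)
        rw [hy'] at h7
        exact h7
      have hy1 : (y : H) ≠ 1 := by
        intro h
        rw [h, orderOf_one] at hy'
        omega
      have hcomm := Subgroup.mem_centralizer_singleton_iff.mp (h3 y.2)
      exact no_comm81 ρ hfix hρ hp3 hV ha ha1 hy5 hy1 hcomm.symm
    · subst hj
      have h3 := Nat.prime_two.dvd_of_dvd_pow h1
      omega

end Exc

end Cfsg.Agent.Lib.TwoNZ
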