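import Cfsg.Agent.Lib.TwoNZ.Exc3
import Mathlib

/-!
# The exceptional degrees in Huppert's theorem: the degree nine and the conclusion.
-/

set_option autoImplicit false
set_option linter.unusedSectionVars false

namespace Cfsg.Agent.Lib.TwoNZ

universe u v

open Cfsg

section Exc

variable {H : Type u} [Group H] [Finite H] {p : ℕ} [hp : Fact p.Prime] {V : Type v}
  [AddCommGroup V] [Module (ZMod p) V] [Finite V]
  (ρ : H →* (V ≃ₗ[ZMod p] V))
  (htrans : ∀ v w : V, v ≠ 0 → w ≠ 0 → ∃ g : H, ρ g v = w)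
  (hfix : ∀ (g : H) (v : V), v ≠ 0 → ρ g v = v → ∃ k : ℕ, g ^ (p ^ k) = 1)

variable [Group.IsSolvable H]

include htrans hfix in
/-- The degree nine. -/
theorem case_nine (hρ : Function.Injective ρ) (hp3 : p = 3) (hcore : pCore p H = ⊥) (hV : Nat.card V = 9)
    {v₀ : V} (hv₀ : v₀ ≠ 0) : HasNormalPComplement p H ∧ ∀ Q : Sylow p H, IsMulCommutative Q := by
  classical
  subst hp3
  have hp2 : (3 : ℕ) ≠ 2 := by norm_num
  have hn : Nat.card V - 1 = 8 := by omega
  by_cases hdvd : 3 ∣ Nat.card H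
  swap
  · exact conclusion_of_not_dvd hdvd
  obtain ⟨a, ha'⟩ := exists_prime_orderOf_dvd_card' (G := H) 3 hdvd
  have ha : a ^ 3 = 1 := by
    rw [← ha']
    exact pow_orderOf_eq_one a
  have ha1 : a ≠ 1 := by
    rintro rfl
    rw [orderOf_one] at ha'
    omega
  obtain ⟨ℓ, hℓ, hne, hnot⟩ : ∃ ℓ : ℕ, ℓ.Prime ∧ ℓ ≠ 3 ∧ ¬ pCore ℓ H ≤ Subgroup.centralizer ({a} : Set H) := by
    by_contra hcon
    push Not at hcon
    exact false_of_centralizes_cores ha ha1 hcore hcon
  obtain ⟨c, u, j, -, hcu, hu, hj, hd, h2, hu1⟩ := core_shape ρ htrans hfix hρ hp2 hv₀ ha hℓ hne hne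
  rw [hn] at hd
  have hu3 : u % 3 = 1 := hu
  have hu4 : u = 4 := by
    rcases num3 ((Dvd.intro_left _ rfl).trans hd) hu3 with h1 | h1
    · exact absurd (hu1 h1) hnot
    · exact h1
  subst hu4
  have hℓ2 : ℓ = 2 := by
    have h3 : 2 ∣ ℓ ^ j := by
      rw [← hj]; norm_num
    exact ((Nat.prime_dvd_prime_iff_eq Nat.prime_two hℓ).mp (Nat.prime_two.dvd_of_dvd_pow h3)).symm
  subst hℓ2
  have hc2 : c = 2 := by
    have h3 : 2 ∣ c := h2 (by omega)
    have h5 : c ∣ 2 := by
      have h6 : c * 4 ∣ 2 * 4 := hd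
      exact Nat.dvd_of_mul_dvd_mul_right (by norm_num) h6
    exact Nat.dvd_antisymm h5 h3
  subst hc2
  have hT8 : Nat.card (pCore 2 H) = 8 := by
    rw [hcu]
  haveI : Fact (Nat.Prime 2) := ⟨Nat.prime_two⟩
  obtain ⟨k, hk⟩ := card_eq_mul_pow ρ htrans hfix hv₀
  rw [hn] at hk
  -- other cores vanish
  have hother : ∀ ℓ : ℕ, ℓ.Prime → ℓ ≠ 2 → ℓ ≠ 3 → pCore ℓ H = ⊥ := by
    intro ℓ hℓ h1 h3
    haveI : Fact ℓ.Prime := ⟨hℓ⟩
    obtain ⟨m, hm⟩ := IsPGroup.iff_card.mp (Cfsg.Agent.Lib.Core.pCore_isPGroup ℓ H)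
    have hcop : (Nat.card (pCore ℓ H)).Coprime 3 := by
      rw [hm]
      exact Nat.Coprime.pow_left _ ((Nat.coprime_primes hℓ Nat.prime_three).mpr h3)
    have h4 := card_dvd_of_coprime ρ htrans hfix hv₀ _ hcop
    rw [hn, hm] at h4
    cases m with
    | zero => exact Subgroup.eq_bot_of_card_eq _ (by simpa using hm)
    | succ m =>
      exfalso
      have h5 : ℓ ∣ 8 := (dvd_pow_self _ (Nat.succ_ne_zero _)).trans h4
      have h6 : ℓ ∣ 2 ^ 3 := h5
      have h7 := hℓ.dvd_of_dvd_pow h6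
      exact h1 ((Nat.prime_dvd_prime_iff_eq hℓ Nat.prime_two).mp h7)
  -- the order of a Sylow subgroup
  have hcardQ : ∀ Q : Sylow 3 H, Nat.card Q = 3 ^ k := by
    intro Q
    obtain ⟨m, hm⟩ := IsPGroup.iff_card.mp Q.isPGroup'
    have h1 : Nat.card Q * Q.1.index = 8 * 3 ^ k := by
      rw [Subgroup.card_mul_index, hk]
    have h3 : ¬ 3 ∣ Q.1.index := Q.not_dvd_index
    have h4 : Nat.Coprime (3 ^ k) Q.1.index :=
      Nat.Coprime.pow_left _ ((Nat.Prime.coprime_iff_not_dvd Nat.prime_three).mpr h3)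
    have h5 : 3 ^ k ∣ Nat.card Q := by
      apply h4.dvd_of_dvd_mul_right
      rw [h1]
      exact Dvd.intro_left _ rfl
    have h6 : Nat.Coprime (3 ^ m) 8 := Nat.Coprime.pow_left _ (by norm_num)
    have h7 : Nat.card Q ∣ 3 ^ k := by
      rw [hm]
      apply h6.dvd_of_dvd_mul_left
      rw [← hm, ← h1]
      exact Dvd.intro _ rfl
    exact Nat.dvd_antisymm h7 h5
  constructor
  · obtain ⟨P⟩ : Nonempty (Sylow 3 H) := inferInstance
    refine ⟨P, pCore 2 H, inferInstance, ?_⟩
    apply Subgroup.isComplement'_of_coprime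
    · rw [hT8, hcardQ P, hk]
    · rw [hT8, hcardQ P]
      exact Nat.Coprime.pow_right _ (by norm_num)
  · intro Q
    have hinj : ∀ x ∈ (Q : Subgroup H), (∀ t ∈ pCore 2 H, x * t = t * x) → x = 1 := by
      intro x hx hxt
      by_contra hx1
      obtain ⟨m, hm⟩ := (IsPGroup.iff_orderOf.mp Q.isPGroup') ⟨x, hx⟩
      rw [Subgroup.orderOf_mk] at hm
      have hm0 : m ≠ 0 := by
        rintro rfl
        exact hx1 (orderOf_eq_one_iff.mp (by simpa using hm))
      obtain ⟨m', rfl⟩ := Nat.exists_eq_succ_of_ne_zero hm0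
      have hb3 : (x ^ 3 ^ m') ^ 3 = 1 := by
        rw [← pow_mul, ← pow_succ, ← hm]
        exact pow_orderOf_eq_one x
      have hb1 : x ^ 3 ^ m' ≠ 1 := by
        apply pow_ne_one_of_lt_orderOf (by positivity)
        rw [hm]
        exact Nat.pow_lt_pow_succ (by norm_num)
      refine false_of_centralizes_cores hb3 hb1 hcore (fun ℓ hℓ hne => ?_)
      by_cases hℓ2 : ℓ = 2
      · subst hℓ2
        intro t ht
        show t ∈ Subgroup.centralizer _
        rw [Subgroup.mem_centralizer_singleton_iff]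
        have h1 : Commute x t := hxt t ht
        exact (h1.pow_left _).symm
      · rw [hother ℓ hℓ hℓ2 hne]
        exact bot_le
    let f : Q →* Equiv.Perm (pCore 2 H) :=
      (MulAut.toPerm (pCore 2 H)).comp ((MulAut.conjNormal (H := pCore 2 H)).comp (Q : Subgroup H).subtype)
    have hf : Function.Injective f := by
      rw [injective_iff_map_eq_one]
      intro x hx
      apply Subtype.ext
      apply hinj _ x.2
      intro t ht
      have h1 : (f x) ⟨t, ht⟩ = ⟨t, ht⟩ := by
        rw [hx]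
        rfl
      have h2 : (x : H) * t * (x : H)⁻¹ = t := congrArg Subtype.val h1
      calc (x : H) * t = ((x : H) * t * (x : H)⁻¹) * x := by group
        _ = t * x := by rw [h2]
    have h1 : Nat.card Q ∣ Nat.card (Equiv.Perm (pCore 2 H)) := Subgroup.card_dvd_of_injective f hf
    haveI : Fintype (pCore 2 H) := Fintype.ofFinite _
    have h3 : Nat.card (Equiv.Perm (pCore 2 H)) = 40320 := by
      rw [Nat.card_eq_fintype_card, Fintype.card_perm, ← Nat.card_eq_fintype_card, hT8]
      rfl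
    rw [h3, hcardQ Q] at h1
    have hk2 : k ≤ 2 := by
      by_contra hcon
      have h4 : (3 : ℕ) ^ 3 ∣ 3 ^ k := pow_dvd_pow _ (by omega)
      have h5 := h4.trans h1
      norm_num at h5
    exact comm_of_card_pow_le_two (hcardQ Q) hk2

include htrans hfix in
/-- **The exceptional degrees**. -/
theorem exc_main (hρ : Function.Injective ρ) (hcore : pCore p H = ⊥)
    (hV : Nat.card V ∈ ({9, 25, 49, 121, 529, 81} : Set ℕ)) :
    HasNormalPComplement p H ∧ ∀ Q : Sylow p H, IsMulCommutative Q := by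
  have hne : Nontrivial V := by
    rw [← Finite.one_lt_card_iff_nontrivial]
    simp only [Set.mem_insert_iff, Set.mem_singleton_iff] at hV
    omega
  obtain ⟨v₀, hv₀⟩ := exists_ne (0 : V)
  by_cases hdvd : p ∣ Nat.card H
  swap
  · exact conclusion_of_not_dvd hdvd
  obtain ⟨a, ha'⟩ := exists_prime_orderOf_dvd_card' (G := H) p hdvd
  have ha : a ^ p = 1 := by
    rw [← ha']
    exact pow_orderOf_eq_one a
  have ha1 : a ≠ 1 := by
    rintro rfl
    rw [orderOf_one] at ha'
    exact hp.out.one_lt.ne ha'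
  simp only [Set.mem_insert_iff, Set.mem_singleton_iff] at hV
  rcases hV with hV | hV | hV | hV | hV | hV
  · exact case_nine ρ htrans hfix hρ (prime_eq_of_card (q := 3) (n := 2) Nat.prime_three hV hv₀) hcore hV hv₀
  · exfalso
    have hp5 : p = 5 := prime_eq_of_card (q := 5) (n := 2) (by norm_num) hV hv₀
    subst hp5
    refine false_of_num ρ htrans hfix hρ hcore (by norm_num) hv₀ ha ha1 ?_
    intro ℓ u j hℓ hd hu hj
    rw [hV] at hd
    rcases num5 hd hu with h1 | h1
    · exact h1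
    · exfalso
      exact not_prime_pow_of_two Nat.prime_two Nat.prime_three hℓ (by norm_num) hj (by omega) (by omega)
  · exfalso
    have hp7 : p = 7 := prime_eq_of_card (q := 7) (n := 2) (by norm_num) hV hv₀
    exact false_seven ρ htrans hfix hρ hp7 hcore hV hv₀ ha ha1
  · exfalso
    have hp5 : p = 11 := prime_eq_of_card (q := 11) (n := 2) (by norm_num) hV hv₀
    subst hp5
    refine false_of_num ρ htrans hfix hρ hcore (by norm_num) hv₀ ha ha1 ?_
    intro ℓ u j hℓ hd hu hj
    rw [hV] at hd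
    rcases num11 hd hu with h1 | h1
    · exact h1
    · exfalso
      exact not_prime_pow_of_two Nat.prime_two Nat.prime_three hℓ (by norm_num) hj (by omega) (by omega)
  · exfalso
    have hp5 : p = 23 := prime_eq_of_card (q := 23) (n := 2) (by norm_num) hV hv₀
    subst hp5
    refine false_of_num ρ htrans hfix hρ hcore (by norm_num) hv₀ ha ha1 ?_
    intro ℓ u j hℓ hd hu hj
    rw [hV] at hd
    rcases num23 hd hu with h1 | h1
    · exact h1
    · exfalso
      exact not_prime_pow_of_two Nat.prime_two Nat.prime_three hℓ (by norm_num) hj (by omega) (by omega)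
  · exfalso
    have hp3 : p = 3 := prime_eq_of_card (q := 3) (n := 4) Nat.prime_three hV hv₀
    subst hp3
    exact false_81 ρ htrans hfix hρ rfl hcore hV hv₀ ha ha1

end Exc

end Cfsg.Agent.Lib.TwoNZ
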