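import Cfsg.Agent.Lib.TwoNZ.Exc4
import Cfsg.Agent.Lib.Huppert.Main
import Mathlib

/-!
# A normal elementary abelian subgroup on which the group acts transitively.
-/

set_option autoImplicit false
set_option linter.unusedSectionVars false

namespace Cfsg.Agent.Lib.TwoNZ

universe u v

open Cfsg

/-- The conclusion for an additive action. -/
theorem action_conclusion {H : Type u} [Group H] [Finite H] [hsol : Group.IsSolvable H] {p : ℕ} [hp : Fact p.Prime]
    {V : Type v} [AddCommGroup V] [Module (ZMod p) V] [Finite V] [Nontrivial V]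
    (act : H → V →+ V) (hact1 : ∀ v, act 1 v = v) (hactm : ∀ a b v, act (a * b) v = act a (act b v))
    (hinj : ∀ g, (∀ v, act g v = v) → g = 1)
    (htrans : ∀ v w : V, v ≠ 0 → w ≠ 0 → ∃ g : H, act g v = w)
    (hfix : ∀ (g : H) (v : V), v ≠ 0 → act g v = v → ∃ k : ℕ, g ^ (p ^ k) = 1)
    (hcore : pCore p H = ⊥) :
    HasNormalPComplement p H ∧ ∀ Q : Sylow p H, IsMulCommutative Q := by
  let c (g : H) : V ≃ₗ[ZMod p] V :=
    { (act g).toZModLinearMap p with
      invFun := act g⁻¹
      left_inv := fun v => by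
        show act g⁻¹ (act g v) = v
        rw [← hactm, inv_mul_cancel, hact1]
      right_inv := fun v => by
        show act g (act g⁻¹ v) = v
        rw [← hactm, mul_inv_cancel, hact1] }
  let ρ : H →* (V ≃ₗ[ZMod p] V) := MonoidHom.mk' c
    (fun a b => by
      apply LinearEquiv.ext
      intro v
      exact hactm a b v)
  have hρ' : ∀ (g : H) (v : V), ρ g v = act g v := fun _ _ => rfl
  have hρ : Function.Injective ρ := by
    rw [injective_iff_map_eq_one]
    intro g hg
    apply hinj
    intro v
    rw [← hρ', hg]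
    rfl
  rcases Cfsg.Agent.Lib.Huppert.huppert_theorem p hsol ρ hρ htrans with h | h
  · obtain ⟨F, _, _, e, he⟩ := h
    exact semilinear_case ρ hρ e he
  · exact exc_main ρ htrans hfix hρ hcore h

theorem conj_action_conclusion {G : Type u} [Group G] [Finite G] [hsol : Group.IsSolvable G] {p : ℕ} [hp : Fact p.Prime]
    (N : Subgroup G) [hN : N.Normal] (hN1 : N ≠ ⊥) (hab : ∀ a ∈ N, ∀ b ∈ N, a * b = b * a)
    (hexp : ∀ a ∈ N, a ^ p = 1)
    (hconj : ∀ x ∈ N, x ≠ 1 → ∀ y ∈ N, y ≠ 1 → IsConj x y)
    (hcent : ∀ y ∈ N, y ≠ 1 → IsPGroup p (Subgroup.centralizer ({y} : Set G)))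
    (hQ : ∀ g : G, g ∈ pCore p G ↔ ∀ n ∈ N, g * n = n * g) :
    HasNormalPComplement p (G ⧸ pCore p G) ∧ ∀ Q : Sylow p (G ⧸ pCore p G), IsMulCommutative Q := by
  classical
  letI cN : CommGroup N :=
    { (inferInstance : Group N) with mul_comm := fun a b => Subtype.ext (hab a a.2 b b.2) }
  letI hmod : Module (ZMod p) (Additive N) := AddCommGroup.zmodModule (fun x => by
    apply Additive.toMul.injective
    apply Subtype.ext
    have h1 : ((Additive.toMul (p • x) : N) : G) = ((Additive.toMul x : N) : G) ^ p := by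
      rw [toMul_nsmul]
      rfl
    rw [h1, hexp _ (Additive.toMul x).2]
    rfl)
  let lift₀ : G ⧸ pCore p G →* MulAut N := QuotientGroup.lift (pCore p G) (MulAut.conjNormal (H := N)) (fun q hq => by
    apply MulEquiv.ext
    intro v
    apply Subtype.ext
    rw [MulAut.conjNormal_apply, (hQ q).mp hq _ v.2]
    simp)
  let act : G ⧸ pCore p G → Additive N →+ Additive N := fun x => MonoidHom.toAdditive (lift₀ x).toMonoidHom
  have hact : ∀ (g : G) (v : Additive N), ((Additive.toMul (act (g : G ⧸ pCore p G) v) : N) : G) = g * (Additive.toMul v : N) * g⁻¹ :=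
    fun g v => MulAut.conjNormal_apply g _
  have hact1 : ∀ v : Additive N, act 1 v = v := by
    intro v
    show Additive.ofMul ((lift₀ 1) (Additive.toMul v)) = v
    rw [map_one]
    rfl
  have hactm : ∀ (a b : G ⧸ pCore p G) (v : Additive N), act (a * b) v = act a (act b v) := by
    intro a b v
    show Additive.ofMul ((lift₀ (a * b)) (Additive.toMul v)) = Additive.ofMul ((lift₀ a) ((lift₀ b) (Additive.toMul v)))
    rw [map_mul]
    rfl
  have hinj : ∀ x, (∀ v, act x v = v) → x = 1 := by
    intro x hx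
    obtain ⟨g, rfl⟩ := QuotientGroup.mk_surjective x
    rw [QuotientGroup.eq_one_iff, hQ]
    intro n hn
    have h1 := hx (Additive.ofMul (⟨n, hn⟩ : N))
    have h2 := congrArg (fun v : Additive N => ((Additive.toMul v : N) : G)) h1
    simp only [hact] at h2
    have h3 : g * n * g⁻¹ = n := h2
    calc g * n = (g * n * g⁻¹) * g := by group
      _ = n * g := by rw [h3]
  have htv : ∀ v : Additive N, v ≠ 0 → (Additive.toMul v : N).1 ≠ 1 := by
    intro v hv h
    apply hv
    apply Additive.toMul.injective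
    exact Subtype.ext h
  have htrans : ∀ v w : Additive N, v ≠ 0 → w ≠ 0 → ∃ g : G ⧸ pCore p G, act g v = w := by
    intro v w hv hw
    obtain ⟨g, hg⟩ := isConj_iff.mp (hconj _ (Additive.toMul v : N).2 (htv v hv) _ (Additive.toMul w : N).2 (htv w hw))
    refine ⟨(g : G ⧸ pCore p G), ?_⟩
    apply Additive.toMul.injective
    apply Subtype.ext
    rw [hact, hg]
  have hfix : ∀ (g : G ⧸ pCore p G) (v : Additive N), v ≠ 0 → act g v = v → ∃ k : ℕ, g ^ (p ^ k) = 1 := by
    intro x v hv hx
    obtain ⟨g, rfl⟩ := QuotientGroup.mk_surjective x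
    have h2 := congrArg (fun v : Additive N => ((Additive.toMul v : N) : G)) hx
    simp only [hact] at h2
    have h3 : g ∈ Subgroup.centralizer ({((Additive.toMul v : N) : G)} : Set G) := by
      rw [Subgroup.mem_centralizer_singleton_iff]
      calc g * (Additive.toMul v : N) = (g * (Additive.toMul v : N) * g⁻¹) * g := by group
        _ = ((Additive.toMul v : N) : G) * g := by rw [h2]
    obtain ⟨k, hk⟩ := hcent _ (Additive.toMul v : N).2 (htv v hv) ⟨g, h3⟩
    refine ⟨k, ?_⟩
    have h4 : g ^ (p ^ k) = 1 := by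
      have h5 := congrArg Subtype.val hk
      simpa using h5
    rw [← QuotientGroup.mk_pow, h4]
    rfl
  have hcore : pCore p (G ⧸ pCore p G) = ⊥ := Cfsg.Agent.Lib.Core.pCore_quotient_pCore_eq_bot
  haveI : Nontrivial N := (Subgroup.nontrivial_iff_ne_bot N).mpr hN1
  haveI : Group.IsSolvable (G ⧸ pCore p G) := inferInstance
  exact action_conclusion act hact1 hactm hinj htrans hfix hcore

end Cfsg.Agent.Lib.TwoNZ
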