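import Cfsg.Agent.Lib.Transfer.Frobenius
import Cfsg.Agent.Lib.Core.MinNormal
import Mathlib

/-!
# Semilinear groups: a normal `p`-complement with abelian Sylow `p`-subgroups.
-/

set_option autoImplicit false
set_option linter.unusedSectionVars false

namespace Cfsg.Agent.Lib.TwoNZ

universe u v

section Comp

variable {H : Type u} [Group H] [Finite H] {p : ℕ} [hp : Fact p.Prime]

/-- A normal `p'`-subgroup with abelian quotient gives a normal `p`-complement. -/
theorem hasNormalPComplement_of_comm_quot (A : Subgroup H) [hA : A.Normal]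
    (hcop : (Nat.card A).Coprime p) (hcomm : ∀ x y : H, x * y * x⁻¹ * y⁻¹ ∈ A) :
    Cfsg.HasNormalPComplement p H := by
  obtain ⟨P⟩ : Nonempty (Sylow p H) := inferInstance
  let K := Cfsg.pPrimeCore p H
  haveI hKn : K.Normal := inferInstance
  have hKcop : (Nat.card K).Coprime p := Cfsg.Agent.Lib.Core.pPrimeCore_coprime p H
  have hAK : A ≤ K := Cfsg.Agent.Lib.Core.le_pPrimeCore hA hcop
  have hinf : K ⊓ (P : Subgroup H) = ⊥ := by
    rw [eq_bot_iff]
    rintro x ⟨hx1, hx2⟩
    have h1 : orderOf x ∣ Nat.card K := by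
      have := orderOf_dvd_natCard (⟨x, hx1⟩ : K)
      rwa [Subgroup.orderOf_mk] at this
    exact Cfsg.Agent.Lib.Transfer.eq_one_of_coprime_of_isPGroup P.isPGroup' hx2
      (Nat.Coprime.coprime_dvd_left h1 hKcop)
  have hsup : K ⊔ (P : Subgroup H) = ⊤ := by
    rw [eq_top_iff, ← Cfsg.Agent.Lib.Core.iSup_sylow_eq_top (G := H)]
    refine iSup_le fun q => iSup_le fun R => ?_
    haveI : Fact (q : ℕ).Prime := ⟨q.2⟩
    by_cases hq : (q : ℕ) = p
    · obtain ⟨q, hq0⟩ := q
      simp only at hq
      subst hq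
      obtain ⟨g, hg⟩ := MulAction.exists_smul_eq H P R
      intro x hx
      rw [← hg] at hx
      have hu : g⁻¹ * x * g ∈ (P : Subgroup H) := by
        have h0 := Subgroup.mem_pointwise_smul_iff_inv_smul_mem.mp hx
        simpa [MulAut.smul_def] using h0
      have h1 : x = (x * g⁻¹ * x⁻¹ * g⁻¹⁻¹) * (g⁻¹ * x * g) := by group
      rw [h1]
      exact Subgroup.mul_mem _ (Subgroup.mem_sup_left (hAK (hcomm x g⁻¹))) (Subgroup.mem_sup_right hu)
    · refine le_trans ?_ le_sup_left
      have hMn : ((R : Subgroup H) ⊔ A).Normal := by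
        constructor
        intro y hy g
        have h1 : g * y * g⁻¹ = (g * y * g⁻¹ * y⁻¹) * y := by group
        rw [h1]
        exact Subgroup.mul_mem _ (Subgroup.mem_sup_right (hcomm g y)) hy
      have hMc : (Nat.card ((R : Subgroup H) ⊔ A : Subgroup H)).Coprime p := by
        have h1 : A ≤ (R : Subgroup H) ⊔ A := le_sup_right
        have h2 := Subgroup.card_mul_index (A.subgroupOf ((R : Subgroup H) ⊔ A))
        have h3 : Nat.card (A.subgroupOf ((R : Subgroup H) ⊔ A)) = Nat.card A :=
          Nat.card_congr (Subgroup.subgroupOfEquivOfLe h1).toEquiv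
        have h4 : (A.subgroupOf ((R : Subgroup H) ⊔ A)).index = A.relIndex (R : Subgroup H) :=
          Subgroup.relIndex_sup_right (R : Subgroup H) A
        rw [h3, h4] at h2
        rw [← h2]
        refine Nat.Coprime.mul_left hcop ?_
        have h5 : A.relIndex (R : Subgroup H) ∣ Nat.card (R : Subgroup H) := Subgroup.relIndex_dvd_card _ _
        obtain ⟨k, hk⟩ := IsPGroup.iff_card.mp R.isPGroup'
        rw [hk] at h5
        exact Nat.Coprime.coprime_dvd_left h5
          (Nat.Coprime.pow_left k ((Nat.coprime_primes q.2 (Fact.out : p.Prime)).mpr hq))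
      exact le_sup_left.trans (Cfsg.Agent.Lib.Core.le_pPrimeCore hMn hMc)
  exact ⟨P, K, hKn, Cfsg.Agent.Lib.Core.isComplement'_of_inf_sup hinf hsup⟩

end Comp

section Aut

/-- The ring automorphisms of a finite field commute. -/
theorem ringAut_comm {F : Type*} [Field F] [Fintype F] (σ τ : F ≃+* F) (x : F) : σ (τ x) = τ (σ x) := by
  classical
  obtain ⟨p, hchar⟩ := CharP.exists F
  haveI : CharP F p := hchar
  haveI hpf : Fact p.Prime := ⟨CharP.char_is_prime F p⟩
  letI : Algebra (ZMod p) F := ZMod.algebra F p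
  have hfix : ∀ (s : F ≃+* F) (r : ZMod p), s (algebraMap (ZMod p) F r) = algebraMap (ZMod p) F r := by
    intro s r
    have h : (s : F →+* F).comp (algebraMap (ZMod p) F) = algebraMap (ZMod p) F :=
      Subsingleton.elim _ _
    exact congrArg (fun f : ZMod p →+* F => f r) h
  let σ' : F ≃ₐ[ZMod p] F := AlgEquiv.ofRingEquiv (f := σ) (hfix σ)
  let τ' : F ≃ₐ[ZMod p] F := AlgEquiv.ofRingEquiv (f := τ) (hfix τ)
  have hc : IsCyclic (F ≃ₐ[ZMod p] F) := inferInstance
  have h1 : σ' * τ' = τ' * σ' := (IsCyclic.isMulCommutative (α := F ≃ₐ[ZMod p] F)).is_comm.comm σ' τ'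
  exact congrArg (fun f : F ≃ₐ[ZMod p] F => f x) h1

end Aut

section Semi

variable {H : Type u} [Group H] [Finite H] {p : ℕ} [hp : Fact p.Prime] {V : Type v} [AddCommGroup V]
  [Module (ZMod p) V] [Finite V] [Nontrivial V]

/-- **A semilinear group**: normal `p`-complement and abelian Sylow `p`-subgroups. -/
theorem semilinear_case (ρ : H →* (V ≃ₗ[ZMod p] V)) (hρ : Function.Injective ρ) {F : Type} [Field F]
    [Fintype F] (e : V ≃+ F)
    (h : ∀ g : H, ∃ (a : F) (σ : F ≃+* F), ∀ v : V, e (ρ g v) = a * σ (e v)) :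
    Cfsg.HasNormalPComplement p H ∧ ∀ Q : Sylow p H, IsMulCommutative (Q : Subgroup H) := by
  classical
  choose a σ ha using h
  -- the characteristic
  have hpF : (p : F) = 0 := by
    have h1 : (p : ZMod p) • (e.symm 1) = 0 := by
      rw [ZMod.natCast_self, zero_smul]
    have h2 : e ((p : ZMod p) • (e.symm 1)) = (p : F) := by
      have h3 : ((p : ZMod p) • (e.symm 1)) = p • (e.symm 1) := by
        rw [Nat.cast_smul_eq_nsmul]
      rw [h3, map_nsmul, AddEquiv.apply_symm_apply]
      simp
    rw [← h2, h1, map_zero]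
  haveI hchar : CharP F p := (CharP.charP_iff_prime_eq_zero hp.out).mpr hpF
  have ha0 : ∀ g, a g ≠ 0 := by
    intro g h0
    have h1 := ha g (e.symm 1)
    rw [h0, zero_mul] at h1
    have h2 : ρ g (e.symm 1) = 0 := by
      apply e.injective
      rw [h1, map_zero]
    have h3 : e.symm (1 : F) = 0 := by
      apply (ρ g).injective
      rw [h2, map_zero]
    have h4 : (1 : F) = 0 := by
      apply e.symm.injective
      rw [h3, map_zero]
    exact one_ne_zero h4
  have hamul : ∀ g k, a (g * k) = a g * σ g (a k) := by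
    intro g k
    have h1 := ha (g * k) (e.symm 1)
    have h2 := ha g (ρ k (e.symm 1))
    have h3 := ha k (e.symm 1)
    rw [AddEquiv.apply_symm_apply, RingEquiv.map_one, mul_one] at h1 h3
    rw [map_mul] at h1
    show _ = _
    have h4 : e ((ρ g * ρ k) (e.symm 1)) = e (ρ g (ρ k (e.symm 1))) := rfl
    rw [h1.symm.trans h4, h2, h3]
  have hσmul : ∀ g k w, σ (g * k) w = σ g (σ k w) := by
    intro g k w
    have h1 := ha (g * k) (e.symm w)
    have h2 := ha g (ρ k (e.symm w))
    have h3 := ha k (e.symm w)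
    rw [AddEquiv.apply_symm_apply] at h1 h3
    rw [map_mul] at h1
    have h4 : e ((ρ g * ρ k) (e.symm w)) = e (ρ g (ρ k (e.symm w))) := rfl
    rw [h4, h2, h3, map_mul, ← mul_assoc, ← hamul] at h1
    exact (mul_left_cancel₀ (ha0 _) h1).symm
  let τ : H →* RingAut F := MonoidHom.mk' σ (fun g k => RingEquiv.ext (hσmul g k))
  have hτ : ∀ g, τ g = σ g := fun _ => rfl
  let A : Subgroup H := τ.ker
  have hAσ : ∀ g ∈ A, ∀ w, σ g w = w := by
    intro g hg w
    have h1 : τ g = 1 := hg
    rw [hτ] at h1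
    have h2 := congrArg (fun s : RingAut F => s w) h1
    exact h2
  have hcomm : ∀ x y : H, x * y * x⁻¹ * y⁻¹ ∈ A := by
    intro x y
    show τ (x * y * x⁻¹ * y⁻¹) = 1
    have h1 : τ x * τ y = τ y * τ x := RingEquiv.ext fun w => ringAut_comm (τ x) (τ y) w
    simp only [map_mul, map_inv]
    rw [h1]
    group
  -- `A` embeds in the multiplicative group
  let θ : A →* Fˣ :=
    { toFun := fun g => Units.mk0 (a g) (ha0 g)
      map_one' := by
        apply Units.ext
        have h1 := hamul 1 1
        simp only [mul_one] at h1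
        have h2 : σ 1 (a 1) = a 1 := hAσ 1 (Subgroup.one_mem _) _
        rw [h2] at h1
        have h3 : a 1 * 1 = a 1 * a 1 := by rw [mul_one]; exact h1
        exact (mul_left_cancel₀ (ha0 1) h3).symm
      map_mul' := fun g k => by
        apply Units.ext
        show a (g * k : H) = a g * a k
        rw [hamul, hAσ g g.2] }
  have hθ : Function.Injective θ := by
    intro g k hgk
    have h1 : a g = a k := congrArg Units.val hgk
    apply Subtype.ext
    apply hρ
    ext v
    apply e.injective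
    rw [ha, ha, h1, hAσ g g.2, hAσ k k.2]
  have hcop : (Nat.card A).Coprime p := by
    have h1 : Nat.card A ∣ Nat.card Fˣ := Subgroup.card_dvd_of_injective θ hθ
    have h2 : Nat.card Fˣ = Fintype.card F - 1 := by
      rw [Nat.card_eq_fintype_card, Fintype.card_units]
    have h3 : p ∣ Fintype.card F := by
      obtain ⟨n, -, hn2⟩ := FiniteField.card F p
      rw [hn2]
      exact dvd_pow_self p n.pos.ne'
    have h4 : 0 < Fintype.card F := Fintype.card_pos
    have h5 : (Fintype.card F - 1).Coprime p := by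
      rw [Nat.coprime_comm, Nat.Prime.coprime_iff_not_dvd hp.out]
      intro h6
      have h7 : p ∣ 1 := by
        have h8 := (Nat.dvd_sub h3 h6)
        have h9 : Fintype.card F - (Fintype.card F - 1) = 1 := by omega
        rwa [h9] at h8
      exact hp.out.one_lt.ne' (Nat.dvd_one.mp h7)
    rw [h2] at h1
    exact Nat.Coprime.coprime_dvd_left h1 h5
  haveI hAn : A.Normal := MonoidHom.normal_ker τ
  refine ⟨hasNormalPComplement_of_comm_quot A hcop hcomm, fun Q => ?_⟩
  refine IsMulCommutative.of_comm ?_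
  intro x y
  apply Subtype.ext
  have h1 : (x : H) * y * (x : H)⁻¹ * (y : H)⁻¹ ∈ (Q : Subgroup H) :=
    Subgroup.mul_mem _ (Subgroup.mul_mem _ (Subgroup.mul_mem _ x.2 y.2) (Subgroup.inv_mem _ x.2))
      (Subgroup.inv_mem _ y.2)
  have h2 : orderOf ((x : H) * y * (x : H)⁻¹ * (y : H)⁻¹) ∣ Nat.card A := by
    have := orderOf_dvd_natCard (⟨_, hcomm x y⟩ : A)
    rwa [Subgroup.orderOf_mk] at this
  have h3 := Cfsg.Agent.Lib.Transfer.eq_one_of_coprime_of_isPGroup Q.isPGroup' h1
    (Nat.Coprime.coprime_dvd_left h2 hcop)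
  show (x : H) * y = y * x
  calc (x : H) * y = ((x : H) * y * (x : H)⁻¹ * (y : H)⁻¹) * (y * x) := by group
    _ = y * x := by rw [h3, one_mul]

end Semi

end Cfsg.Agent.Lib.TwoNZ
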